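import Groth.Agent.S0344
import Groth.Agent.LoccohA.GorBC
import Groth.Agent.Flat2D.FiberStalk

/-!
# Gorenstein closed fibres in a tower of local homomorphisms

For local homomorphisms `A → B → C` with `B → C` flat and Noetherian closed fibres over `A`:
`C / m_A C` is Gorenstein iff `B / m_A B` and `C / m_B C` are.
-/

set_option autoImplicit false
universe u

open IsLocalRing

namespace Groth.Agent.Dual.H331.GorComp

/-- `C / m_A C` is Gorenstein iff `B / m_A B` and `C / m_B C` are, `B → C` flat. -/
theorem gorenstein_tower_iff (A B C : Type u) [CommRing A] [CommRing B] [CommRing C]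
    [IsLocalRing A] [IsLocalRing B] [IsLocalRing C] [Algebra A B] [Algebra B C] [Algebra A C]
    [IsScalarTower A B C] [IsLocalHom (algebraMap A B)] [IsLocalHom (algebraMap B C)]
    [Module.Flat B C]
    (hB : IsNoetherianRing (B ⧸ (maximalIdeal A).map (algebraMap A B)))
    (hC : IsNoetherianRing (C ⧸ (maximalIdeal A).map (algebraMap A C))) :
    LocCoh.IsGorensteinLocalRing (C ⧸ (maximalIdeal A).map (algebraMap A C)) ↔
      LocCoh.IsGorensteinLocalRing (B ⧸ (maximalIdeal A).map (algebraMap A B)) ∧
      LocCoh.IsGorensteinLocalRing (C ⧸ (maximalIdeal B).map (algebraMap B C)) := by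
  set I : Ideal B := (maximalIdeal A).map (algebraMap A B) with hI
  have hIC : (maximalIdeal A).map (algebraMap A C) = I.map (algebraMap B C) := by
    rw [hI, Ideal.map_map, ← IsScalarTower.algebraMap_eq]
  rw [hIC] at hC ⊢
  have hIm : I ≤ maximalIdeal B := ((IsLocalRing.local_hom_TFAE (algebraMap A B)).out 0 2 rfl rfl).mp inferInstance
  have hmB : (maximalIdeal B).map (algebraMap B C) ≤ maximalIdeal C :=
    ((IsLocalRing.local_hom_TFAE (algebraMap B C)).out 0 2 rfl rfl).mp inferInstance
  have hICm : I.map (algebraMap B C) ≤ (maximalIdeal B).map (algebraMap B C) := Ideal.map_mono hIm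
  have hBnt : Nontrivial (B ⧸ I) := Ideal.Quotient.nontrivial_iff.2
    (fun h => (maximalIdeal.isMaximal B).ne_top (top_le_iff.1 (h.ge.trans hIm)))
  have hCnt : Nontrivial (C ⧸ I.map (algebraMap B C)) := Ideal.Quotient.nontrivial_iff.2
    (fun h => (maximalIdeal.isMaximal C).ne_top (top_le_iff.1 (h.ge.trans (hICm.trans hmB))))
  have hBl : IsLocalRing (B ⧸ I) :=
    IsLocalRing.of_surjective' (Ideal.Quotient.mk _) Ideal.Quotient.mk_surjective
  have hCl : IsLocalRing (C ⧸ I.map (algebraMap B C)) :=
    IsLocalRing.of_surjective' (Ideal.Quotient.mk _) Ideal.Quotient.mk_surjective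
  have hfl := S2008.flat_quot B C I
  have hloc : IsLocalHom (algebraMap (B ⧸ I) (C ⧸ I.map (algebraMap B C))) := by
    constructor
    intro a ha
    obtain ⟨a, rfl⟩ := Ideal.Quotient.mk_surjective a
    have h3 : IsUnit (Ideal.Quotient.mk (I.map (algebraMap B C)) (algebraMap B C a)) := ha
    have h4 : IsLocalHom (Ideal.Quotient.mk (I.map (algebraMap B C))) :=
      IsLocalHom.of_surjective _ Ideal.Quotient.mk_surjective
    exact (isUnit_of_map_unit _ _ (isUnit_of_map_unit _ _ h3)).map _
  rw [S0344.result (B ⧸ I) (C ⧸ I.map (algebraMap B C))]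
  refine and_congr Iff.rfl ?_
  have hmax : (maximalIdeal (B ⧸ I)).map (algebraMap (B ⧸ I) (C ⧸ I.map (algebraMap B C))) =
      ((maximalIdeal B).map (algebraMap B C)).map (Ideal.Quotient.mk (I.map (algebraMap B C))) := by
    rw [← IsLocalRing.map_maximalIdeal_of_surjective _ (Ideal.Quotient.mk_surjective (I := I))]
    exact (Ideal.map_map _ _).trans (Ideal.map_map (I := maximalIdeal B) (algebraMap B C)
      (Ideal.Quotient.mk (I.map (algebraMap B C)))).symm
  let e : ((C ⧸ I.map (algebraMap B C)) ⧸ (maximalIdeal (B ⧸ I)).map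
        (algebraMap (B ⧸ I) (C ⧸ I.map (algebraMap B C)))) ≃+*
      (C ⧸ (maximalIdeal B).map (algebraMap B C)) :=
    (Ideal.quotEquivOfEq hmax).trans (DoubleQuot.quotQuotEquivQuotOfLE hICm)
  exact ⟨LoccohA.GorBC.isGorensteinLocalRing_of_ringEquiv e,
    LoccohA.GorBC.isGorensteinLocalRing_of_ringEquiv e.symm⟩

end Groth.Agent.Dual.H331.GorComp
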